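import Mathlib
import Cfsg.Agent.Lib.Helper18.SLMDefs

/-!
# Project SLM (helper18, S2332), piece TRDECA: the trace of a Levi element as the trace on the
fixed space plus the number of fixed non-zero weights.
-/

set_option autoImplicit false

namespace Cfsg.Agent.Lib.Helper18.SLM

open Matrix

universe u

variable {F : Type u} [Field F] [Fintype F]

theorem trdeca_mem {ι : Type*} {V : Type*} [AddCommGroup V] [Module ℂ V]
    {N : ι → Submodule ℂ V} (σ : ι → ι) (f : V →ₗ[ℂ] V) (hf : ∀ i, ∀ v ∈ N i, f v ∈ N (σ i))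
    (i : ι) (hi : σ i = i) (v : ↥(N i)) : f (v : V) ∈ N i := by
  have h := hf i v v.2
  rwa [hi] at h

/-- the trace of an endomorphism permuting the summands of an internal direct sum, through a
collected basis: only the summands mapped to themselves contribute -/
theorem trdeca_trace {ι : Type*} [Fintype ι] [DecidableEq ι] {V : Type*} [AddCommGroup V]
    [Module ℂ V] [FiniteDimensional ℂ V] {N : ι → Submodule ℂ V} (h : DirectSum.IsInternal N)
    (σ : ι → ι) (f : V →ₗ[ℂ] V) (hf : ∀ i, ∀ v ∈ N i, f v ∈ N (σ i)) :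
    LinearMap.trace ℂ V f = ∑ i : ι, ∑ a : Module.Free.ChooseBasisIndex ℂ (N i),
      if hi : σ i = i then
        (Module.Free.chooseBasis ℂ (N i)).repr
          ⟨f (Module.Free.chooseBasis ℂ (N i) a : V), trdeca_mem σ f hf i hi _⟩ a
      else 0 := by
  rw [LinearMap.trace_eq_matrix_trace ℂ
    (h.collectedBasis fun i => Module.Free.chooseBasis ℂ (N i)) f, Matrix.trace, Fintype.sum_sigma]
  apply Finset.sum_congr rfl
  intro i _
  apply Finset.sum_congr rfl
  intro a _
  rw [Matrix.diag_apply, LinearMap.toMatrix_apply, h.collectedBasis_coe]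
  by_cases hi : σ i = i
  · rw [dif_pos hi]
    exact h.collectedBasis_repr_of_mem _ _
  · rw [dif_neg hi]
    exact h.collectedBasis_repr_of_mem_ne _ hi (hf i _ (Subtype.mem _))

-- piece TRDECA
open Classical in
theorem trace_dec {V : Type*} [AddCommGroup V] [Module ℂ V] [FiniteDimensional ℂ V]
    (ψ : AddChar F ℂ) {k : ℕ}
    (ρ : Representation ℂ (Matrix.SpecialLinearGroup (Fin (k + 1)) F) V)
    (hI : DirectSum.IsInternal (fun l : Fin k → F => wt ψ ρ l)) (hM : M1 ψ ρ)
    (g : Matrix.SpecialLinearGroup (Fin k) F)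
    (hmap : ∀ l : Fin k → F, ∀ v ∈ wt ψ ρ l,
      ρ (lev g) v ∈ wt ψ ρ ((g : Matrix (Fin k) (Fin k) F) *ᵥ l))
    (hfix : ∀ l : Fin k → F, l ≠ 0 → (g : Matrix (Fin k) (Fin k) F) *ᵥ l = l →
      ∀ v ∈ wt ψ ρ l, ρ (lev g) v = v)
    (h0 : ∀ g : Matrix.SpecialLinearGroup (Fin k) F, ∀ v ∈ wt ψ ρ 0, ρ (lev g) v ∈ wt ψ ρ 0) :
    LinearMap.trace ℂ V (ρ (lev g)) = LinearMap.trace ℂ ↥(wt ψ ρ 0) (resW ψ ρ h0 g) +
      (Nat.card {l : Fin k → F // l ≠ 0 ∧ (g : Matrix (Fin k) (Fin k) F) *ᵥ l = l} : ℂ) := by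
  have hσ0 : (g : Matrix (Fin k) (Fin k) F) *ᵥ (0 : Fin k → F) = 0 := Matrix.mulVec_zero _
  rw [trdeca_trace hI (fun l => (g : Matrix (Fin k) (Fin k) F) *ᵥ l) (ρ (lev g)) hmap]
  -- the summands
  have hterm : ∀ l : Fin k → F,
      (∑ a : Module.Free.ChooseBasisIndex ℂ (wt ψ ρ l),
        if hi : (g : Matrix (Fin k) (Fin k) F) *ᵥ l = l then
          (Module.Free.chooseBasis ℂ (wt ψ ρ l)).repr
            ⟨ρ (lev g) (Module.Free.chooseBasis ℂ (wt ψ ρ l) a : V),
              trdeca_mem (fun l => (g : Matrix (Fin k) (Fin k) F) *ᵥ l) (ρ (lev g)) hmap l hi _⟩ a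
        else 0) =
      (if l = 0 then LinearMap.trace ℂ ↥(wt ψ ρ 0) (resW ψ ρ h0 g) else 0) +
        (if l ≠ 0 ∧ (g : Matrix (Fin k) (Fin k) F) *ᵥ l = l then (1 : ℂ) else 0) := by
    intro l
    by_cases hl : l = 0
    · subst hl
      rw [if_pos rfl, if_neg (fun h => h.1 rfl), add_zero,
        LinearMap.trace_eq_matrix_trace ℂ (Module.Free.chooseBasis ℂ (wt ψ ρ (0 : Fin k → F)))
          (resW ψ ρ h0 g), Matrix.trace]
      apply Finset.sum_congr rfl
      intro a _
      rw [dif_pos hσ0, Matrix.diag_apply, LinearMap.toMatrix_apply]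
      rfl
    · rw [if_neg hl, zero_add]
      by_cases hi : (g : Matrix (Fin k) (Fin k) F) *ᵥ l = l
      · rw [if_pos ⟨hl, hi⟩]
        have h1 : ∀ a : Module.Free.ChooseBasisIndex ℂ (wt ψ ρ l),
            (if hi : (g : Matrix (Fin k) (Fin k) F) *ᵥ l = l then
              (Module.Free.chooseBasis ℂ (wt ψ ρ l)).repr
                ⟨ρ (lev g) (Module.Free.chooseBasis ℂ (wt ψ ρ l) a : V),
                  trdeca_mem (fun l => (g : Matrix (Fin k) (Fin k) F) *ᵥ l) (ρ (lev g)) hmap l hi _⟩ a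
            else 0) = (1 : ℂ) := by
          intro a
          rw [dif_pos hi]
          have h2 : (⟨ρ (lev g) (Module.Free.chooseBasis ℂ (wt ψ ρ l) a : V),
              trdeca_mem (fun l => (g : Matrix (Fin k) (Fin k) F) *ᵥ l) (ρ (lev g)) hmap l hi _⟩ :
                ↥(wt ψ ρ l)) =
              Module.Free.chooseBasis ℂ (wt ψ ρ l) a :=
            Subtype.ext (hfix l hl hi _ (Subtype.mem _))
          rw [h2, Module.Basis.repr_self, Finsupp.single_eq_same]
        rw [Finset.sum_congr rfl (fun a _ => h1 a), Finset.sum_const, Finset.card_univ,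
          ← Module.finrank_eq_card_chooseBasisIndex, hM l hl]
        simp
      · rw [if_neg (fun h => hi h.2)]
        apply Finset.sum_eq_zero
        intro a _
        rw [dif_neg hi]
  rw [Finset.sum_congr rfl (fun l _ => hterm l), Finset.sum_add_distrib, Finset.sum_ite_eq']
  rw [if_pos (Finset.mem_univ _), Finset.sum_boole, Nat.card_eq_fintype_card, Fintype.card_subtype]

end Cfsg.Agent.Lib.Helper18.SLM
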