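import Mathlib
import Cfsg.Agent.Lib.Helper18.LSDefs
import Cfsg.Agent.Lib.Helper18.WRDefs

/-!
# Project WR (helper18, S2347), piece ODDNZ: a matrix with `M + Mᵀ ≠ 0` has a non-zero value of
its quadratic form.
-/

set_option autoImplicit false

namespace Cfsg.Agent.Lib.Helper18.WR

open Matrix

universe u

variable {F : Type u} [Field F] {n : ℕ}

-- piece ODDNZ
theorem exists_qf_ne (M : Matrix (Fin n) (Fin n) F) (hM : M + Mᵀ ≠ 0) :
    ∃ u₀ : Fin n → F, LS.qf M u₀ ≠ 0 := by
  by_contra hcon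
  have h0 : ∀ u : Fin n → F, LS.qf M u = 0 := by
    intro u
    by_contra hu
    exact hcon ⟨u, hu⟩
  apply hM
  ext i j
  have h1 := LS.qf_add M (Pi.single i 1) (Pi.single j 1)
  rw [h0, h0, h0, zero_add, zero_add] at h1
  have h2 : LS.bl M (Pi.single i 1) (Pi.single j 1) = (M + Mᵀ) i j := by
    unfold LS.bl
    simp [dotProduct, mulVec, Pi.single_apply]
  rw [← h2, ← h1]
  rfl

end Cfsg.Agent.Lib.Helper18.WR
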