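import Cfsg.Agent.Lib.Helper38.CosetSimple

/-!
Simplicity for presentations with dead generators, the homomorphism of a sub-presentation into
the big group, and homomorphisms of simple groups.
-/

namespace Cfsg.Agent.Lib.Helper38

/-- **Simplicity**, the version of `simple_of_transp` which allows trivial generators. -/
theorem simple_of_transp1 {G : Type*} [Group G] [Nontrivial G] (γ : ℕ → G) (g : ℕ)
    (hgen : Subgroup.closure (γ '' {s | s < g}) = ⊤)
    (z : G) (hz2 : z * z = 1)
    (hconj : ∀ s < g, γ s = 1 ∨ ∃ x : G, γ s = x * z * x⁻¹)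
    (H : Subgroup G) (hHz : ∀ h ∈ H, h * z = z * h)
    (hmax : ∀ M : Subgroup G, H ≤ M → M = H ∨ M = ⊤)
    (hcen : ∀ c : G, (∀ x, c * x = x * c) → c = 1)
    (w : List ℕ) (hwc : ∀ s ∈ w, ∃ x : G, γ s = x * z * x⁻¹) (hodd : w.length % 2 = 1)
    (hw : (w.map γ).prod = 1) :
    IsSimpleGroup G := by
  refine { toNontrivial := ‹Nontrivial G›, eq_bot_or_eq_top_of_normal := fun N hN => ?_ }
  rcases hmax (N ⊔ H) le_sup_right with hM | hM
  · -- `N ≤ H`, hence `N` is central
    left
    have hNH : N ≤ H := by rw [← hM]; exact le_sup_left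
    rw [eq_bot_iff]
    intro n hn
    rw [Subgroup.mem_bot]
    apply hcen
    have hcomm : ∀ s < g, n * γ s = γ s * n := by
      intro s hs
      rcases hconj s hs with h1 | ⟨x, hx⟩
      · rw [h1, mul_one, one_mul]
      have h1 : x⁻¹ * n * x ∈ N := by
        have := hN.conj_mem n hn x⁻¹
        rwa [inv_inv] at this
      have h2 := hHz _ (hNH h1)
      rw [hx]
      calc n * (x * z * x⁻¹) = x * ((x⁻¹ * n * x) * z) * x⁻¹ := by group
        _ = x * (z * (x⁻¹ * n * x)) * x⁻¹ := by rw [h2]
        _ = x * z * x⁻¹ * n := by group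
    intro x
    have hx : x ∈ Subgroup.closure (γ '' {s | s < g}) := by rw [hgen]; exact Subgroup.mem_top x
    induction hx using Subgroup.closure_induction with
    | mem y hy => obtain ⟨s, hs, rfl⟩ := hy; exact hcomm s hs
    | one => rw [one_mul, mul_one]
    | mul a b _ _ ha hb => rw [← mul_assoc, ha, mul_assoc, hb, mul_assoc]
    | inv a _ ha =>
      calc n * a⁻¹ = a⁻¹ * (a * n) * a⁻¹ := by group
        _ = a⁻¹ * (n * a) * a⁻¹ := by rw [ha]
        _ = a⁻¹ * n := by group
  · -- `N H = G`, hence all conjugates of `z` among the generators are congruent to `z` modulo `N`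
    right
    have hgz : ∀ s, (∃ x : G, γ s = x * z * x⁻¹) →
        (QuotientGroup.mk (γ s) : G ⧸ N) = QuotientGroup.mk z := by
      rintro s ⟨x, hx⟩
      have hxm : x ∈ N ⊔ H := by rw [hM]; exact Subgroup.mem_top x
      obtain ⟨n, hn, h, hh, rfl⟩ := Subgroup.mem_sup_of_normal_left.mp hxm
      have h2 := hHz h hh
      have e : γ s = n * z * n⁻¹ := by
        rw [hx]
        calc n * h * z * (n * h)⁻¹ = n * (h * z) * h⁻¹ * n⁻¹ := by group
          _ = n * (z * h) * h⁻¹ * n⁻¹ := by rw [h2]
          _ = n * z * n⁻¹ := by group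
      have hn1 : (QuotientGroup.mk n : G ⧸ N) = 1 := (QuotientGroup.eq_one_iff n).mpr hn
      rw [e, QuotientGroup.mk_mul, QuotientGroup.mk_mul, QuotientGroup.mk_inv, hn1, one_mul,
        inv_one, mul_one]
    have hζ2 : (QuotientGroup.mk z : G ⧸ N) * QuotientGroup.mk z = 1 := by
      rw [← QuotientGroup.mk_mul, hz2]; rfl
    have hpow : (QuotientGroup.mk z : G ⧸ N) ^ w.length = 1 := by
      have h1 := congrArg (QuotientGroup.mk' N) hw
      rw [map_list_prod, List.map_map, map_one] at h1
      have h3 := List.prod_eq_pow_card (w.map (⇑(QuotientGroup.mk' N) ∘ γ)) (QuotientGroup.mk z) (by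
        intro y hy
        obtain ⟨s, hs, rfl⟩ := List.mem_map.mp hy
        exact hgz s (hwc s hs))
      rw [List.length_map] at h3
      rw [← h3, h1]
    have hζ : (QuotientGroup.mk z : G ⧸ N) = 1 := by
      have e : w.length = 2 * (w.length / 2) + 1 := by omega
      rw [e, pow_succ, pow_mul, pow_two, hζ2, one_pow, one_mul] at hpow
      exact hpow
    rw [eq_top_iff, ← hgen, Subgroup.closure_le]
    rintro _ ⟨s, hs, rfl⟩
    rcases hconj s hs with h1 | hx
    · rw [h1]; exact one_mem N
    · exact (QuotientGroup.eq_one_iff _).mp ((hgz s hx).trans hζ)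

/-- the homomorphism of a smaller presented group into a group satisfying its relations -/
theorem sub_hom {G : Type*} [Group G] (γ : ℕ → G) (hγ : ∀ s, γ s * γ s = 1)
    (words : List (List ℕ)) (hrelw : ∀ w ∈ words, (w.map γ).prod = 1)
    (g' : ℕ) (words' : List (List ℕ)) (act : ℕ → Bool)
    (hact : ∀ s, g' ≤ s → act s = false)
    (hw' : ∀ w ∈ words', okw words act w = true) :
    ∃ ψ : WP g' words' →* G, ∀ s, ψ (WP.gen g' words' s) = if act s = true then γ s else 1 := by
  classical
  let f : ℕ → G := fun s => if act s = true then γ s else 1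
  have hf2 : ∀ s, f s * f s = 1 := by
    intro s
    show (if act s = true then γ s else 1) * (if act s = true then γ s else 1) = 1
    split_ifs
    · exact hγ s
    · exact one_mul 1
  have hfge : ∀ s, g' ≤ s → f s = 1 := by
    intro s hs
    show (if act s = true then γ s else 1) = 1
    rw [if_neg (by rw [hact s hs]; exact Bool.false_ne_true)]
  have hfact : ∀ w : List ℕ, w.all act = true → w.map f = w.map γ := by
    intro w hw
    apply List.map_congr_left
    intro s hs
    show (if act s = true then γ s else 1) = γ s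
    rw [if_pos (List.all_eq_true.mp hw s hs)]
  have hfw : ∀ w ∈ words', (w.map f).prod = 1 := by
    intro w hw
    have h := hw' w hw
    unfold okw at h
    rw [Bool.or_eq_true] at h
    rcases h with h | h
    · match w, h with
      | [s], h =>
        have hs : act s = false := by simpa using h
        show (if act s = true then γ s else 1) * 1 = 1
        rw [if_neg (by rw [hs]; exact Bool.false_ne_true), one_mul]
    · rw [Bool.and_eq_true, decide_eq_true_eq] at h
      rw [hfact w h.2]
      exact hrelw w h.1
  exact ⟨WP.lift g' words' f hf2 hfge hfw, fun s => WP.lift_gen g' words' f hf2 hfge hfw s⟩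

/-- a homomorphism of a simple group which is not trivial on some element is injective -/
theorem injective_of_simple {G K : Type*} [Group G] [Group K] [IsSimpleGroup G] (f : G →* K)
    (x : G) (hx : f x ≠ 1) : Function.Injective f := by
  rw [← MonoidHom.ker_eq_bot_iff]
  rcases (inferInstance : f.ker.Normal).eq_bot_or_eq_top with h | h
  · exact h
  · exfalso
    apply hx
    have : x ∈ f.ker := by rw [h]; exact Subgroup.mem_top x
    exact MonoidHom.mem_ker.mp this

end Cfsg.Agent.Lib.Helper38
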