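import Mathlib
import Cfsg.Agent.Lib.Helper4.FCDefs

/-!
# Project FC (S4146, architect helper4), piece QREG

`b` of `q`-power order, `y ∈ C(b)` of order prime to `q`: `C(b y) = C(b) ∩ C(y)` (L3), so
`cs (b y) = |C(b) : C_{C(b)}(y)| * |G : C(b)|`.
-/

set_option autoImplicit false

namespace Cfsg.Agent.Lib.Helper4.FC

universe u

theorem fc_qreg : L3Stmt.{u} → QRegStmt.{u} := by
  intro hL3 G _ _ q b hb y hy
  obtain ⟨k, hk⟩ := hb
  have hcomm : Commute b (y : G) := by
    have hmem := y.2
    rw [Subgroup.mem_centralizer_iff] at hmem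
    exact hmem b (Set.mem_singleton b)
  have hcop : (orderOf b).Coprime (orderOf (y : G)) := by
    rw [hk]
    exact Nat.Coprime.pow_left k hy.symm
  have h3 := hL3 G b (y : G) hcomm hcop
  have hsub : (Cen y : Subgroup ↥(Cen b)) = (Cen (y : G)).subgroupOf (Cen b) := by
    ext g
    rw [Subgroup.mem_subgroupOf, Subgroup.mem_centralizer_iff, Subgroup.mem_centralizer_iff]
    constructor
    · intro h z hz
      rw [Set.mem_singleton_iff] at hz
      subst hz
      have hyg := h y (Set.mem_singleton y)
      exact congrArg Subtype.val hyg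
    · intro h z hz
      rw [Set.mem_singleton_iff] at hz
      subst hz
      apply Subtype.ext
      exact h (z : G) (Set.mem_singleton _)
  show (Cen y).index * (Cen b).index = (Cen (b * (y : G))).index
  rw [h3, hsub]
  show (Cen (y : G)).relIndex (Cen b) * (Cen b).index = _
  rw [← Subgroup.inf_relIndex_right, Subgroup.relIndex_mul_index inf_le_right, inf_comm]

end Cfsg.Agent.Lib.Helper4.FC
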