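import Mathlib
import Cfsg.Agent.Lib.Helper48.QADefs

/-!
# Project QA (helper48, S2787), piece GRAPH

A subgroup `𝒯` of `G₁ × G₂` which is "functional" (`(1, b) ∈ 𝒯 → b = 1`): the subgroup generated by
two elements `(x₁, x₂), (y₁, y₂)` of `𝒯` projects injectively to `G₁` and onto `⟨x₂, y₂⟩`; so
finiteness goes from `⟨x₁, y₁⟩` to `⟨x₂, y₂⟩`, and an element of order 4 comes back.
-/

set_option autoImplicit false

universe u

namespace Cfsg.Agent.Lib.Helper48.QA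

open Matrix Polynomial

/-- QA-GRAPH -/
theorem graph_order_four {G₁ G₂ : Type*} [Group G₁] [Group G₂] (𝒯 : Subgroup (G₁ × G₂))
    (hfun : ∀ b : G₂, ((1 : G₁), b) ∈ 𝒯 → b = 1) (x₁ y₁ : G₁) (x₂ y₂ : G₂)
    (hx : (x₁, x₂) ∈ 𝒯) (hy : (y₁, y₂) ∈ 𝒯) (hfin : Finite ↥(Subgroup.closure {x₁, y₁})) :
    Finite ↥(Subgroup.closure {x₂, y₂}) ∧
      ((∃ b ∈ Subgroup.closure {x₂, y₂}, orderOf b = 4) →
        ∃ s ∈ Subgroup.closure {x₁, y₁}, orderOf s = 4) := by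
  classical
  set T0 : Subgroup (G₁ × G₂) := Subgroup.closure {(x₁, x₂), (y₁, y₂)} with hT0
  have hle : T0 ≤ 𝒯 := by
    rw [hT0, Subgroup.closure_le]
    intro t ht
    rcases ht with rfl | rfl
    · exact hx
    · exact hy
  have hfst : T0.map (MonoidHom.fst G₁ G₂) = Subgroup.closure {x₁, y₁} := by
    rw [hT0, MonoidHom.map_closure, Set.image_pair]
    rfl
  have hsnd : T0.map (MonoidHom.snd G₁ G₂) = Subgroup.closure {x₂, y₂} := by
    rw [hT0, MonoidHom.map_closure, Set.image_pair]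
    rfl
  have hinj : ∀ t ∈ T0, ∀ t' ∈ T0, t.1 = t'.1 → t = t' := by
    intro t ht t' ht' h
    have hmem : t⁻¹ * t' ∈ 𝒯 := 𝒯.mul_mem (𝒯.inv_mem (hle ht)) (hle ht')
    have h1 : t⁻¹ * t' = ((1 : G₁), t.2⁻¹ * t'.2) := by
      ext
      · simp [h]
      · simp
    rw [h1] at hmem
    have h2 := hfun _ hmem
    ext
    · exact h
    · exact inv_mul_eq_one.1 h2
  have hfinT : Finite ↥T0 := by
    let f : ↥T0 → ↥(Subgroup.closure {x₁, y₁}) := fun t =>
      ⟨t.1.1, by rw [← hfst]; exact Subgroup.mem_map.2 ⟨t.1, t.2, rfl⟩⟩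
    apply Finite.of_injective f
    intro t t' h
    apply Subtype.ext
    apply hinj t.1 t.2 t'.1 t'.2
    exact congrArg Subtype.val h
  constructor
  · let g : ↥T0 → ↥(Subgroup.closure {x₂, y₂}) := fun t =>
      ⟨t.1.2, by rw [← hsnd]; exact Subgroup.mem_map.2 ⟨t.1, t.2, rfl⟩⟩
    apply Finite.of_surjective g
    rintro ⟨b, hb⟩
    rw [← hsnd] at hb
    obtain ⟨t, ht, rfl⟩ := Subgroup.mem_map.1 hb
    exact ⟨⟨t, ht⟩, rfl⟩
  · rintro ⟨b, hb, hb4⟩
    rw [← hsnd] at hb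
    obtain ⟨t, ht, rfl⟩ := Subgroup.mem_map.1 hb
    simp only [MonoidHom.coe_snd] at hb4
    have hs : t.1 ∈ Subgroup.closure {x₁, y₁} := by
      rw [← hfst]; exact Subgroup.mem_map.2 ⟨t, ht, rfl⟩
    have hsfin : IsOfFinOrder t.1 := by
      have hfo := isOfFinOrder_of_finite (⟨t.1, hs⟩ : ↥(Subgroup.closure {x₁, y₁}))
      rw [isOfFinOrder_iff_pow_eq_one] at hfo ⊢
      obtain ⟨n, hn, h⟩ := hfo
      exact ⟨n, hn, by simpa using congrArg Subtype.val h⟩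
    have hpos : 0 < orderOf t.1 := hsfin.orderOf_pos
    have hdvd : orderOf t.2 ∣ orderOf t.1 := by
      apply orderOf_dvd_of_pow_eq_one
      have hmem : t ^ orderOf t.1 ∈ 𝒯 := 𝒯.pow_mem (hle ht) _
      have h1 : t ^ orderOf t.1 = ((1 : G₁), t.2 ^ orderOf t.1) := by
        ext
        · simp [pow_orderOf_eq_one]
        · simp
      rw [h1] at hmem
      exact hfun _ hmem
    rw [hb4] at hdvd
    obtain ⟨n, hn⟩ := hdvd
    have hn0 : n ≠ 0 := by
      rintro rfl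
      rw [mul_zero] at hn
      omega
    refine ⟨t.1 ^ n, Subgroup.pow_mem _ hs n, ?_⟩
    rw [orderOf_pow_of_dvd hn0 (Dvd.intro_left 4 hn.symm), hn]
    exact Nat.mul_div_cancel _ (Nat.pos_of_ne_zero hn0)

end Cfsg.Agent.Lib.Helper48.QA
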