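import Cfsg.Agent.Lib.Helper38.Suz1782O0

set_option maxRecDepth 100000
set_option maxHeartbeats 0

namespace Cfsg.Agent.Lib.Helper38.Suz1782

theorem chkO_all : ∀ v < 1782, cert.chkO v = true := by
  intro v hv
  by_cases h0 : v < 300
  · exact allFrom_iff.mp chkO_0 v (by omega) (by omega)
  by_cases h1 : v < 600
  · exact allFrom_iff.mp chkO_1 v (by omega) (by omega)
  by_cases h2 : v < 900
  · exact allFrom_iff.mp chkO_2 v (by omega) (by omega)
  by_cases h3 : v < 1200
  · exact allFrom_iff.mp chkO_3 v (by omega) (by omega)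
  by_cases h4 : v < 1500
  · exact allFrom_iff.mp chkO_4 v (by omega) (by omega)
  exact allFrom_iff.mp chkO_5 v (by omega) (by omega)

end Cfsg.Agent.Lib.Helper38.Suz1782
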