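import Cfsg.Agent.Lib.Helper38.Suz1782Data

set_option maxRecDepth 100000
set_option maxHeartbeats 0

namespace Cfsg.Agent.Lib.Helper38.Suz1782

theorem chkO_0 : allFrom 0 300 cert.chkO = true := by decide +kernel
theorem chkO_1 : allFrom 300 300 cert.chkO = true := by decide +kernel
theorem chkO_2 : allFrom 600 300 cert.chkO = true := by decide +kernel
theorem chkO_3 : allFrom 900 300 cert.chkO = true := by decide +kernel
theorem chkO_4 : allFrom 1200 300 cert.chkO = true := by decide +kernel
theorem chkO_5 : allFrom 1500 282 cert.chkO = true := by decide +kernel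

end Cfsg.Agent.Lib.Helper38.Suz1782
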