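import Cfsg.Agent.Lib.Helper38.Suz1782Data

set_option maxRecDepth 100000
set_option maxHeartbeats 0

namespace Cfsg.Agent.Lib.Helper38.Suz1782

theorem chkV_0 : allFrom 0 600 cert.chkV = true := by decide +kernel
theorem chkV_1 : allFrom 600 600 cert.chkV = true := by decide +kernel
theorem chkV_2 : allFrom 1200 600 cert.chkV = true := by decide +kernel
theorem chkV_3 : allFrom 1800 600 cert.chkV = true := by decide +kernel
theorem chkV_4 : allFrom 2400 600 cert.chkV = true := by decide +kernel
theorem chkV_5 : allFrom 3000 600 cert.chkV = true := by decide +kernel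
theorem chkV_6 : allFrom 3600 600 cert.chkV = true := by decide +kernel
theorem chkV_7 : allFrom 4200 600 cert.chkV = true := by decide +kernel
theorem chkV_8 : allFrom 4800 600 cert.chkV = true := by decide +kernel
theorem chkV_9 : allFrom 5400 600 cert.chkV = true := by decide +kernel
theorem chkV_10 : allFrom 6000 600 cert.chkV = true := by decide +kernel
theorem chkV_11 : allFrom 6600 600 cert.chkV = true := by decide +kernel

end Cfsg.Agent.Lib.Helper38.Suz1782
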