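import Cfsg.Agent.Lib.Helper38.Suz1782Data

set_option maxRecDepth 100000
set_option maxHeartbeats 0

namespace Cfsg.Agent.Lib.Helper38.Suz1782

theorem chkV_12 : allFrom 7200 600 cert.chkV = true := by decide +kernel
theorem chkV_13 : allFrom 7800 600 cert.chkV = true := by decide +kernel
theorem chkV_14 : allFrom 8400 12 cert.chkV = true := by decide +kernel

end Cfsg.Agent.Lib.Helper38.Suz1782
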