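import Cfsg.Agent.Lib.Helper38.Suz22880Data

set_option maxRecDepth 100000
set_option maxHeartbeats 0

namespace Cfsg.Agent.Lib.Helper38.Suz22880

theorem chkN_0 : allFrom 0 250 cert.chkN = true := by decide +kernel
theorem chkN_1 : allFrom 250 250 cert.chkN = true := by decide +kernel
theorem chkN_2 : allFrom 500 250 cert.chkN = true := by decide +kernel
theorem chkN_3 : allFrom 750 250 cert.chkN = true := by decide +kernel
theorem chkN_4 : allFrom 1000 250 cert.chkN = true := by decide +kernel
theorem chkN_5 : allFrom 1250 250 cert.chkN = true := by decide +kernel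
theorem chkN_6 : allFrom 1500 250 cert.chkN = true := by decide +kernel
theorem chkN_7 : allFrom 1750 250 cert.chkN = true := by decide +kernel
theorem chkN_8 : allFrom 2000 250 cert.chkN = true := by decide +kernel
theorem chkN_9 : allFrom 2250 250 cert.chkN = true := by decide +kernel
theorem chkN_10 : allFrom 2500 250 cert.chkN = true := by decide +kernel
theorem chkN_11 : allFrom 2750 250 cert.chkN = true := by decide +kernel

end Cfsg.Agent.Lib.Helper38.Suz22880
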