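import Cfsg.Agent.Lib.Helper38.Suz22880Data

set_option maxRecDepth 100000
set_option maxHeartbeats 0

namespace Cfsg.Agent.Lib.Helper38.Suz22880

theorem chkN_36 : allFrom 9000 250 cert.chkN = true := by decide +kernel
theorem chkN_37 : allFrom 9250 250 cert.chkN = true := by decide +kernel
theorem chkN_38 : allFrom 9500 250 cert.chkN = true := by decide +kernel
theorem chkN_39 : allFrom 9750 250 cert.chkN = true := by decide +kernel
theorem chkN_40 : allFrom 10000 250 cert.chkN = true := by decide +kernel
theorem chkN_41 : allFrom 10250 250 cert.chkN = true := by decide +kernel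
theorem chkN_42 : allFrom 10500 250 cert.chkN = true := by decide +kernel
theorem chkN_43 : allFrom 10750 250 cert.chkN = true := by decide +kernel
theorem chkN_44 : allFrom 11000 250 cert.chkN = true := by decide +kernel
theorem chkN_45 : allFrom 11250 250 cert.chkN = true := by decide +kernel
theorem chkN_46 : allFrom 11500 250 cert.chkN = true := by decide +kernel
theorem chkN_47 : allFrom 11750 250 cert.chkN = true := by decide +kernel

end Cfsg.Agent.Lib.Helper38.Suz22880
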