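import Cfsg.Agent.Lib.Helper38.Suz22880Data

set_option maxRecDepth 100000
set_option maxHeartbeats 0

namespace Cfsg.Agent.Lib.Helper38.Suz22880

theorem chkN_48 : allFrom 12000 250 cert.chkN = true := by decide +kernel
theorem chkN_49 : allFrom 12250 250 cert.chkN = true := by decide +kernel
theorem chkN_50 : allFrom 12500 250 cert.chkN = true := by decide +kernel
theorem chkN_51 : allFrom 12750 250 cert.chkN = true := by decide +kernel
theorem chkN_52 : allFrom 13000 250 cert.chkN = true := by decide +kernel
theorem chkN_53 : allFrom 13250 250 cert.chkN = true := by decide +kernel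
theorem chkN_54 : allFrom 13500 250 cert.chkN = true := by decide +kernel
theorem chkN_55 : allFrom 13750 250 cert.chkN = true := by decide +kernel
theorem chkN_56 : allFrom 14000 250 cert.chkN = true := by decide +kernel
theorem chkN_57 : allFrom 14250 250 cert.chkN = true := by decide +kernel
theorem chkN_58 : allFrom 14500 250 cert.chkN = true := by decide +kernel
theorem chkN_59 : allFrom 14750 250 cert.chkN = true := by decide +kernel

end Cfsg.Agent.Lib.Helper38.Suz22880
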