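import Cfsg.Agent.Lib.Helper38.Suz22880Data

set_option maxRecDepth 100000
set_option maxHeartbeats 0

namespace Cfsg.Agent.Lib.Helper38.Suz22880

theorem chkN_60 : allFrom 15000 250 cert.chkN = true := by decide +kernel
theorem chkN_61 : allFrom 15250 250 cert.chkN = true := by decide +kernel
theorem chkN_62 : allFrom 15500 250 cert.chkN = true := by decide +kernel
theorem chkN_63 : allFrom 15750 250 cert.chkN = true := by decide +kernel
theorem chkN_64 : allFrom 16000 250 cert.chkN = true := by decide +kernel
theorem chkN_65 : allFrom 16250 250 cert.chkN = true := by decide +kernel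
theorem chkN_66 : allFrom 16500 250 cert.chkN = true := by decide +kernel
theorem chkN_67 : allFrom 16750 250 cert.chkN = true := by decide +kernel
theorem chkN_68 : allFrom 17000 250 cert.chkN = true := by decide +kernel
theorem chkN_69 : allFrom 17250 250 cert.chkN = true := by decide +kernel
theorem chkN_70 : allFrom 17500 250 cert.chkN = true := by decide +kernel
theorem chkN_71 : allFrom 17750 250 cert.chkN = true := by decide +kernel

end Cfsg.Agent.Lib.Helper38.Suz22880
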