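import Cfsg.Agent.Lib.Helper38.Suz22880Data

set_option maxRecDepth 100000
set_option maxHeartbeats 0

namespace Cfsg.Agent.Lib.Helper38.Suz22880

theorem chkN_72 : allFrom 18000 250 cert.chkN = true := by decide +kernel
theorem chkN_73 : allFrom 18250 250 cert.chkN = true := by decide +kernel
theorem chkN_74 : allFrom 18500 250 cert.chkN = true := by decide +kernel
theorem chkN_75 : allFrom 18750 250 cert.chkN = true := by decide +kernel
theorem chkN_76 : allFrom 19000 250 cert.chkN = true := by decide +kernel
theorem chkN_77 : allFrom 19250 250 cert.chkN = true := by decide +kernel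
theorem chkN_78 : allFrom 19500 250 cert.chkN = true := by decide +kernel
theorem chkN_79 : allFrom 19750 250 cert.chkN = true := by decide +kernel
theorem chkN_80 : allFrom 20000 250 cert.chkN = true := by decide +kernel
theorem chkN_81 : allFrom 20250 250 cert.chkN = true := by decide +kernel
theorem chkN_82 : allFrom 20500 250 cert.chkN = true := by decide +kernel
theorem chkN_83 : allFrom 20750 250 cert.chkN = true := by decide +kernel

end Cfsg.Agent.Lib.Helper38.Suz22880
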