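import Cfsg.Agent.Lib.Helper38.CosetPres
import Cfsg.Prelude.Def_Spor_Suz

/-!
The presentation of the sporadic group Suz and the list of relator words used by the
coset-enumeration certificates.
-/

set_option maxRecDepth 100000
set_option linter.unusedSimpArgs false
set_option linter.deprecated false

namespace Cfsg.Agent.Lib.Helper38.SuzP

open Cfsg.Spor

/-- the relators of the presentation -/
abbrev rels : Set (FreeGroup Suz.Gen) :=
  coxRelators Suz.edges ∪ {r | r ∈ Suz.extra}

/-- generator number `s` -/
def gen : ℕ → Suz.Gen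
  | 0 => .a
  | 1 => .b
  | 2 => .c
  | 3 => .d
  | 4 => .e
  | 5 => .f
  | _ => .g

/-- the number of a generator -/
def idx : Suz.Gen → ℕ
  | .a => 0
  | .b => 1
  | .c => 2
  | .d => 3
  | .e => 4
  | .f => 5
  | .g => 6

theorem gen_idx (x : Suz.Gen) : gen (idx x) = x := by cases x <;> rfl

theorem idx_lt (x : Suz.Gen) : idx x < 7 := by cases x <;> decide

theorem idx_gen : ∀ s < 7, idx (gen s) = s := by decide

/-- the relator words -/
def words : List (List ℕ) := [
  [0, 1, 0, 1, 0, 1, 0, 1, 0, 1],
  [0, 2, 0, 2],
  [0, 3, 0, 3],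
  [0, 4, 0, 4],
  [0, 5, 0, 5],
  [0, 6, 0, 6],
  [1, 2, 1, 2, 1, 2],
  [1, 3, 1, 3],
  [1, 4, 1, 4],
  [1, 5, 1, 5, 1, 5],
  [1, 6, 1, 6, 1, 6],
  [2, 3, 2, 3, 2, 3, 2, 3, 2, 3, 2, 3, 2, 3, 2, 3],
  [2, 4, 2, 4],
  [2, 5, 2, 5],
  [2, 6, 2, 6],
  [3, 4, 3, 4, 3, 4],
  [3, 5, 3, 5],
  [3, 6, 3, 6],
  [4, 5, 4, 5],
  [4, 6, 4, 6],
  [5, 6, 5, 6, 5, 6, 5, 6],
  [0, 3, 2, 3, 2, 3, 2, 3, 2],
  [0, 6, 5, 6, 5],
  [0, 1, 2, 5, 0, 1, 2, 5, 0, 1, 2, 5, 0, 1, 2, 5, 0, 1, 2, 5],
  [1, 5, 6, 1, 5, 6, 1, 5, 6, 1, 5, 6, 1, 5, 6],
  [1, 2, 3, 2, 3, 1, 2, 3, 2, 3, 1, 2, 3, 2, 3, 1, 2, 3, 2, 3, 1, 2, 3, 2, 3, 4, 1, 2, 3, 2, 3, 1, 2, 3, 2, 3, 1, 2, 3, 2, 3, 1, 2, 3, 2, 3, 1, 2, 3, 2, 3, 4, 1, 2, 3, 2, 3, 1, 2, 3, 2, 3, 1, 2, 3, 2, 3, 1, 2, 3, 2, 3, 1, 2, 3, 2, 3, 4]]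

theorem label_ab : coxLabel Suz.edges .a .b = 5 := by decide
theorem label_ba : coxLabel Suz.edges .b .a = 5 := by decide
theorem label_ac : coxLabel Suz.edges .a .c = 2 := by decide
theorem label_ca : coxLabel Suz.edges .c .a = 2 := by decide
theorem label_ad : coxLabel Suz.edges .a .d = 2 := by decide
theorem label_da : coxLabel Suz.edges .d .a = 2 := by decide
theorem label_ae : coxLabel Suz.edges .a .e = 2 := by decide
theorem label_ea : coxLabel Suz.edges .e .a = 2 := by decide
theorem label_af : coxLabel Suz.edges .a .f = 2 := by decide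
theorem label_fa : coxLabel Suz.edges .f .a = 2 := by decide
theorem label_ag : coxLabel Suz.edges .a .g = 2 := by decide
theorem label_ga : coxLabel Suz.edges .g .a = 2 := by decide
theorem label_bc : coxLabel Suz.edges .b .c = 3 := by decide
theorem label_cb : coxLabel Suz.edges .c .b = 3 := by decide
theorem label_bd : coxLabel Suz.edges .b .d = 2 := by decide
theorem label_db : coxLabel Suz.edges .d .b = 2 := by decide
theorem label_be : coxLabel Suz.edges .b .e = 2 := by decide
theorem label_eb : coxLabel Suz.edges .e .b = 2 := by decide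
theorem label_bf : coxLabel Suz.edges .b .f = 3 := by decide
theorem label_fb : coxLabel Suz.edges .f .b = 3 := by decide
theorem label_bg : coxLabel Suz.edges .b .g = 3 := by decide
theorem label_gb : coxLabel Suz.edges .g .b = 3 := by decide
theorem label_cd : coxLabel Suz.edges .c .d = 8 := by decide
theorem label_dc : coxLabel Suz.edges .d .c = 8 := by decide
theorem label_ce : coxLabel Suz.edges .c .e = 2 := by decide
theorem label_ec : coxLabel Suz.edges .e .c = 2 := by decide
theorem label_cf : coxLabel Suz.edges .c .f = 2 := by decide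
theorem label_fc : coxLabel Suz.edges .f .c = 2 := by decide
theorem label_cg : coxLabel Suz.edges .c .g = 2 := by decide
theorem label_gc : coxLabel Suz.edges .g .c = 2 := by decide
theorem label_de : coxLabel Suz.edges .d .e = 3 := by decide
theorem label_ed : coxLabel Suz.edges .e .d = 3 := by decide
theorem label_df : coxLabel Suz.edges .d .f = 2 := by decide
theorem label_fd : coxLabel Suz.edges .f .d = 2 := by decide
theorem label_dg : coxLabel Suz.edges .d .g = 2 := by decide
theorem label_gd : coxLabel Suz.edges .g .d = 2 := by decide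
theorem label_ef : coxLabel Suz.edges .e .f = 2 := by decide
theorem label_fe : coxLabel Suz.edges .f .e = 2 := by decide
theorem label_eg : coxLabel Suz.edges .e .g = 2 := by decide
theorem label_ge : coxLabel Suz.edges .g .e = 2 := by decide
theorem label_fg : coxLabel Suz.edges .f .g = 4 := by decide
theorem label_gf : coxLabel Suz.edges .g .f = 4 := by decide

theorem node (x : Suz.Gen) : x ∈ coxNodes Suz.edges := by cases x <;> decide

section

variable {K : Type*} [Group K]

theorem invol (f : Suz.Gen → K) (hf : ∀ r ∈ rels, FreeGroup.lift f r = 1) (x : Suz.Gen) :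
    f x * f x = 1 := by
  have h := hf _ (Or.inl ⟨x, node x, x, node x, rfl⟩)
  simpa [coxLabel] using h

theorem words_one (f : Suz.Gen → K) (hf : ∀ r ∈ rels, FreeGroup.lift f r = 1) :
    ∀ w ∈ words, (w.map (fun s => f (gen s))).prod = 1 := by
  have hinv : ∀ x, (f x)⁻¹ = f x := fun x => inv_eq_of_mul_eq_one_left (invol f hf x)
  intro w hw
  simp only [words, List.mem_cons, List.not_mem_nil, or_false] at hw
  rcases hw with rfl | rfl | rfl | rfl | rfl | rfl | rfl | rfl | rfl | rfl | rfl | rfl | rfl | rfl | rfl | rfl | rfl | rfl | rfl | rfl | rfl | rfl | rfl | rfl | rfl | rfl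
  · have h := hf _ (Or.inl ⟨.a, node _, .b, node _, rfl⟩)
    rw [label_ab] at h
    simp only [map_mul, FreeGroup.lift_apply_of, pow_succ, pow_zero, one_mul, mul_assoc] at h
    simp only [List.map_cons, List.map_nil, List.prod_cons, List.prod_nil, mul_one, gen]
    exact h
  · have h := hf _ (Or.inl ⟨.a, node _, .c, node _, rfl⟩)
    rw [label_ac] at h
    simp only [map_mul, FreeGroup.lift_apply_of, pow_succ, pow_zero, one_mul, mul_assoc] at h
    simp only [List.map_cons, List.map_nil, List.prod_cons, List.prod_nil, mul_one, gen]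
    exact h
  · have h := hf _ (Or.inl ⟨.a, node _, .d, node _, rfl⟩)
    rw [label_ad] at h
    simp only [map_mul, FreeGroup.lift_apply_of, pow_succ, pow_zero, one_mul, mul_assoc] at h
    simp only [List.map_cons, List.map_nil, List.prod_cons, List.prod_nil, mul_one, gen]
    exact h
  · have h := hf _ (Or.inl ⟨.a, node _, .e, node _, rfl⟩)
    rw [label_ae] at h
    simp only [map_mul, FreeGroup.lift_apply_of, pow_succ, pow_zero, one_mul, mul_assoc] at h
    simp only [List.map_cons, List.map_nil, List.prod_cons, List.prod_nil, mul_one, gen]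
    exact h
  · have h := hf _ (Or.inl ⟨.a, node _, .f, node _, rfl⟩)
    rw [label_af] at h
    simp only [map_mul, FreeGroup.lift_apply_of, pow_succ, pow_zero, one_mul, mul_assoc] at h
    simp only [List.map_cons, List.map_nil, List.prod_cons, List.prod_nil, mul_one, gen]
    exact h
  · have h := hf _ (Or.inl ⟨.a, node _, .g, node _, rfl⟩)
    rw [label_ag] at h
    simp only [map_mul, FreeGroup.lift_apply_of, pow_succ, pow_zero, one_mul, mul_assoc] at h
    simp only [List.map_cons, List.map_nil, List.prod_cons, List.prod_nil, mul_one, gen]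
    exact h
  · have h := hf _ (Or.inl ⟨.b, node _, .c, node _, rfl⟩)
    rw [label_bc] at h
    simp only [map_mul, FreeGroup.lift_apply_of, pow_succ, pow_zero, one_mul, mul_assoc] at h
    simp only [List.map_cons, List.map_nil, List.prod_cons, List.prod_nil, mul_one, gen]
    exact h
  · have h := hf _ (Or.inl ⟨.b, node _, .d, node _, rfl⟩)
    rw [label_bd] at h
    simp only [map_mul, FreeGroup.lift_apply_of, pow_succ, pow_zero, one_mul, mul_assoc] at h
    simp only [List.map_cons, List.map_nil, List.prod_cons, List.prod_nil, mul_one, gen]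
    exact h
  · have h := hf _ (Or.inl ⟨.b, node _, .e, node _, rfl⟩)
    rw [label_be] at h
    simp only [map_mul, FreeGroup.lift_apply_of, pow_succ, pow_zero, one_mul, mul_assoc] at h
    simp only [List.map_cons, List.map_nil, List.prod_cons, List.prod_nil, mul_one, gen]
    exact h
  · have h := hf _ (Or.inl ⟨.b, node _, .f, node _, rfl⟩)
    rw [label_bf] at h
    simp only [map_mul, FreeGroup.lift_apply_of, pow_succ, pow_zero, one_mul, mul_assoc] at h
    simp only [List.map_cons, List.map_nil, List.prod_cons, List.prod_nil, mul_one, gen]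
    exact h
  · have h := hf _ (Or.inl ⟨.b, node _, .g, node _, rfl⟩)
    rw [label_bg] at h
    simp only [map_mul, FreeGroup.lift_apply_of, pow_succ, pow_zero, one_mul, mul_assoc] at h
    simp only [List.map_cons, List.map_nil, List.prod_cons, List.prod_nil, mul_one, gen]
    exact h
  · have h := hf _ (Or.inl ⟨.c, node _, .d, node _, rfl⟩)
    rw [label_cd] at h
    simp only [map_mul, FreeGroup.lift_apply_of, pow_succ, pow_zero, one_mul, mul_assoc] at h
    simp only [List.map_cons, List.map_nil, List.prod_cons, List.prod_nil, mul_one, gen]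
    exact h
  · have h := hf _ (Or.inl ⟨.c, node _, .e, node _, rfl⟩)
    rw [label_ce] at h
    simp only [map_mul, FreeGroup.lift_apply_of, pow_succ, pow_zero, one_mul, mul_assoc] at h
    simp only [List.map_cons, List.map_nil, List.prod_cons, List.prod_nil, mul_one, gen]
    exact h
  · have h := hf _ (Or.inl ⟨.c, node _, .f, node _, rfl⟩)
    rw [label_cf] at h
    simp only [map_mul, FreeGroup.lift_apply_of, pow_succ, pow_zero, one_mul, mul_assoc] at h
    simp only [List.map_cons, List.map_nil, List.prod_cons, List.prod_nil, mul_one, gen]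
    exact h
  · have h := hf _ (Or.inl ⟨.c, node _, .g, node _, rfl⟩)
    rw [label_cg] at h
    simp only [map_mul, FreeGroup.lift_apply_of, pow_succ, pow_zero, one_mul, mul_assoc] at h
    simp only [List.map_cons, List.map_nil, List.prod_cons, List.prod_nil, mul_one, gen]
    exact h
  · have h := hf _ (Or.inl ⟨.d, node _, .e, node _, rfl⟩)
    rw [label_de] at h
    simp only [map_mul, FreeGroup.lift_apply_of, pow_succ, pow_zero, one_mul, mul_assoc] at h
    simp only [List.map_cons, List.map_nil, List.prod_cons, List.prod_nil, mul_one, gen]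
    exact h
  · have h := hf _ (Or.inl ⟨.d, node _, .f, node _, rfl⟩)
    rw [label_df] at h
    simp only [map_mul, FreeGroup.lift_apply_of, pow_succ, pow_zero, one_mul, mul_assoc] at h
    simp only [List.map_cons, List.map_nil, List.prod_cons, List.prod_nil, mul_one, gen]
    exact h
  · have h := hf _ (Or.inl ⟨.d, node _, .g, node _, rfl⟩)
    rw [label_dg] at h
    simp only [map_mul, FreeGroup.lift_apply_of, pow_succ, pow_zero, one_mul, mul_assoc] at h
    simp only [List.map_cons, List.map_nil, List.prod_cons, List.prod_nil, mul_one, gen]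
    exact h
  · have h := hf _ (Or.inl ⟨.e, node _, .f, node _, rfl⟩)
    rw [label_ef] at h
    simp only [map_mul, FreeGroup.lift_apply_of, pow_succ, pow_zero, one_mul, mul_assoc] at h
    simp only [List.map_cons, List.map_nil, List.prod_cons, List.prod_nil, mul_one, gen]
    exact h
  · have h := hf _ (Or.inl ⟨.e, node _, .g, node _, rfl⟩)
    rw [label_eg] at h
    simp only [map_mul, FreeGroup.lift_apply_of, pow_succ, pow_zero, one_mul, mul_assoc] at h
    simp only [List.map_cons, List.map_nil, List.prod_cons, List.prod_nil, mul_one, gen]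
    exact h
  · have h := hf _ (Or.inl ⟨.f, node _, .g, node _, rfl⟩)
    rw [label_fg] at h
    simp only [map_mul, FreeGroup.lift_apply_of, pow_succ, pow_zero, one_mul, mul_assoc] at h
    simp only [List.map_cons, List.map_nil, List.prod_cons, List.prod_nil, mul_one, gen]
    exact h
  · have h := hf _ (Or.inr (show _ ∈ Suz.extra from List.Mem.head _))
    simp only [map_mul, map_inv, FreeGroup.lift_apply_of, pow_succ, pow_zero, one_mul,
      mul_inv_rev, hinv, mul_assoc] at h
    simp only [List.map_cons, List.map_nil, List.prod_cons, List.prod_nil, mul_one, gen]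
    exact h
  · have h := hf _ (Or.inr (show _ ∈ Suz.extra from List.Mem.tail _ (List.Mem.head _)))
    simp only [map_mul, map_inv, FreeGroup.lift_apply_of, pow_succ, pow_zero, one_mul,
      mul_inv_rev, hinv, mul_assoc] at h
    simp only [List.map_cons, List.map_nil, List.prod_cons, List.prod_nil, mul_one, gen]
    exact h
  · have h := hf _ (Or.inr (show _ ∈ Suz.extra from List.Mem.tail _ (List.Mem.tail _ (List.Mem.head _))))
    simp only [map_mul, map_inv, FreeGroup.lift_apply_of, pow_succ, pow_zero, one_mul,
      mul_inv_rev, hinv, mul_assoc] at h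
    simp only [List.map_cons, List.map_nil, List.prod_cons, List.prod_nil, mul_one, gen]
    exact h
  · have h := hf _ (Or.inr (show _ ∈ Suz.extra from List.Mem.tail _ (List.Mem.tail _ (List.Mem.tail _ (List.Mem.head _)))))
    simp only [map_mul, map_inv, FreeGroup.lift_apply_of, pow_succ, pow_zero, one_mul,
      mul_inv_rev, hinv, mul_assoc] at h
    simp only [List.map_cons, List.map_nil, List.prod_cons, List.prod_nil, mul_one, gen]
    exact h
  · have h := hf _ (Or.inr (show _ ∈ Suz.extra from List.Mem.tail _ (List.Mem.tail _ (List.Mem.tail _ (List.Mem.tail _ (List.Mem.head _))))))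
    simp only [map_mul, map_inv, FreeGroup.lift_apply_of, pow_succ, pow_zero, one_mul,
      mul_inv_rev, hinv, mul_assoc] at h
    simp only [List.map_cons, List.map_nil, List.prod_cons, List.prod_nil, mul_one, gen]
    exact h

theorem cox_case (σ : ℕ → K) (hσ : ∀ s, σ s * σ s = 1)
    (hw : ∀ w ∈ words, (w.map σ).prod = 1) (i j m : ℕ)
    (hmem : (List.replicate m [i, j]).flatten ∈ words) :
    (σ i * σ j) ^ m = 1 ∧ (σ j * σ i) ^ m = 1 := by
  have h := hw _ hmem
  rw [pair_word] at h
  exact ⟨h, pair_swap (hσ i) (hσ j) h⟩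

theorem lift_one (σ : ℕ → K) (hσ : ∀ s, σ s * σ s = 1)
    (hw : ∀ w ∈ words, (w.map σ).prod = 1) :
    ∀ r ∈ rels, FreeGroup.lift (fun x => σ (idx x)) r = 1 := by
  have hinv : ∀ s, (σ s)⁻¹ = σ s := fun s => inv_eq_of_mul_eq_one_left (hσ s)
  rintro r (⟨x, -, y, -, rfl⟩ | hr)
  · cases x <;> cases y
    · simpa [coxLabel, idx] using hσ 0
    · rw [label_ab]
      simpa only [map_pow, map_mul, FreeGroup.lift_apply_of, idx] using
        (cox_case σ hσ hw 0 1 5 (by decide)).1
    · rw [label_ac]
      simpa only [map_pow, map_mul, FreeGroup.lift_apply_of, idx] using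
        (cox_case σ hσ hw 0 2 2 (by decide)).1
    · rw [label_ad]
      simpa only [map_pow, map_mul, FreeGroup.lift_apply_of, idx] using
        (cox_case σ hσ hw 0 3 2 (by decide)).1
    · rw [label_ae]
      simpa only [map_pow, map_mul, FreeGroup.lift_apply_of, idx] using
        (cox_case σ hσ hw 0 4 2 (by decide)).1
    · rw [label_af]
      simpa only [map_pow, map_mul, FreeGroup.lift_apply_of, idx] using
        (cox_case σ hσ hw 0 5 2 (by decide)).1
    · rw [label_ag]
      simpa only [map_pow, map_mul, FreeGroup.lift_apply_of, idx] using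
        (cox_case σ hσ hw 0 6 2 (by decide)).1
    · rw [label_ba]
      simpa only [map_pow, map_mul, FreeGroup.lift_apply_of, idx] using
        (cox_case σ hσ hw 0 1 5 (by decide)).2
    · simpa [coxLabel, idx] using hσ 1
    · rw [label_bc]
      simpa only [map_pow, map_mul, FreeGroup.lift_apply_of, idx] using
        (cox_case σ hσ hw 1 2 3 (by decide)).1
    · rw [label_bd]
      simpa only [map_pow, map_mul, FreeGroup.lift_apply_of, idx] using
        (cox_case σ hσ hw 1 3 2 (by decide)).1
    · rw [label_be]
      simpa only [map_pow, map_mul, FreeGroup.lift_apply_of, idx] using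
        (cox_case σ hσ hw 1 4 2 (by decide)).1
    · rw [label_bf]
      simpa only [map_pow, map_mul, FreeGroup.lift_apply_of, idx] using
        (cox_case σ hσ hw 1 5 3 (by decide)).1
    · rw [label_bg]
      simpa only [map_pow, map_mul, FreeGroup.lift_apply_of, idx] using
        (cox_case σ hσ hw 1 6 3 (by decide)).1
    · rw [label_ca]
      simpa only [map_pow, map_mul, FreeGroup.lift_apply_of, idx] using
        (cox_case σ hσ hw 0 2 2 (by decide)).2
    · rw [label_cb]
      simpa only [map_pow, map_mul, FreeGroup.lift_apply_of, idx] using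
        (cox_case σ hσ hw 1 2 3 (by decide)).2
    · simpa [coxLabel, idx] using hσ 2
    · rw [label_cd]
      simpa only [map_pow, map_mul, FreeGroup.lift_apply_of, idx] using
        (cox_case σ hσ hw 2 3 8 (by decide)).1
    · rw [label_ce]
      simpa only [map_pow, map_mul, FreeGroup.lift_apply_of, idx] using
        (cox_case σ hσ hw 2 4 2 (by decide)).1
    · rw [label_cf]
      simpa only [map_pow, map_mul, FreeGroup.lift_apply_of, idx] using
        (cox_case σ hσ hw 2 5 2 (by decide)).1
    · rw [label_cg]
      simpa only [map_pow, map_mul, FreeGroup.lift_apply_of, idx] using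
        (cox_case σ hσ hw 2 6 2 (by decide)).1
    · rw [label_da]
      simpa only [map_pow, map_mul, FreeGroup.lift_apply_of, idx] using
        (cox_case σ hσ hw 0 3 2 (by decide)).2
    · rw [label_db]
      simpa only [map_pow, map_mul, FreeGroup.lift_apply_of, idx] using
        (cox_case σ hσ hw 1 3 2 (by decide)).2
    · rw [label_dc]
      simpa only [map_pow, map_mul, FreeGroup.lift_apply_of, idx] using
        (cox_case σ hσ hw 2 3 8 (by decide)).2
    · simpa [coxLabel, idx] using hσ 3
    · rw [label_de]
      simpa only [map_pow, map_mul, FreeGroup.lift_apply_of, idx] using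
        (cox_case σ hσ hw 3 4 3 (by decide)).1
    · rw [label_df]
      simpa only [map_pow, map_mul, FreeGroup.lift_apply_of, idx] using
        (cox_case σ hσ hw 3 5 2 (by decide)).1
    · rw [label_dg]
      simpa only [map_pow, map_mul, FreeGroup.lift_apply_of, idx] using
        (cox_case σ hσ hw 3 6 2 (by decide)).1
    · rw [label_ea]
      simpa only [map_pow, map_mul, FreeGroup.lift_apply_of, idx] using
        (cox_case σ hσ hw 0 4 2 (by decide)).2
    · rw [label_eb]
      simpa only [map_pow, map_mul, FreeGroup.lift_apply_of, idx] using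
        (cox_case σ hσ hw 1 4 2 (by decide)).2
    · rw [label_ec]
      simpa only [map_pow, map_mul, FreeGroup.lift_apply_of, idx] using
        (cox_case σ hσ hw 2 4 2 (by decide)).2
    · rw [label_ed]
      simpa only [map_pow, map_mul, FreeGroup.lift_apply_of, idx] using
        (cox_case σ hσ hw 3 4 3 (by decide)).2
    · simpa [coxLabel, idx] using hσ 4
    · rw [label_ef]
      simpa only [map_pow, map_mul, FreeGroup.lift_apply_of, idx] using
        (cox_case σ hσ hw 4 5 2 (by decide)).1
    · rw [label_eg]
      simpa only [map_pow, map_mul, FreeGroup.lift_apply_of, idx] using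
        (cox_case σ hσ hw 4 6 2 (by decide)).1
    · rw [label_fa]
      simpa only [map_pow, map_mul, FreeGroup.lift_apply_of, idx] using
        (cox_case σ hσ hw 0 5 2 (by decide)).2
    · rw [label_fb]
      simpa only [map_pow, map_mul, FreeGroup.lift_apply_of, idx] using
        (cox_case σ hσ hw 1 5 3 (by decide)).2
    · rw [label_fc]
      simpa only [map_pow, map_mul, FreeGroup.lift_apply_of, idx] using
        (cox_case σ hσ hw 2 5 2 (by decide)).2
    · rw [label_fd]
      simpa only [map_pow, map_mul, FreeGroup.lift_apply_of, idx] using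
        (cox_case σ hσ hw 3 5 2 (by decide)).2
    · rw [label_fe]
      simpa only [map_pow, map_mul, FreeGroup.lift_apply_of, idx] using
        (cox_case σ hσ hw 4 5 2 (by decide)).2
    · simpa [coxLabel, idx] using hσ 5
    · rw [label_fg]
      simpa only [map_pow, map_mul, FreeGroup.lift_apply_of, idx] using
        (cox_case σ hσ hw 5 6 4 (by decide)).1
    · rw [label_ga]
      simpa only [map_pow, map_mul, FreeGroup.lift_apply_of, idx] using
        (cox_case σ hσ hw 0 6 2 (by decide)).2
    · rw [label_gb]
      simpa only [map_pow, map_mul, FreeGroup.lift_apply_of, idx] using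
        (cox_case σ hσ hw 1 6 3 (by decide)).2
    · rw [label_gc]
      simpa only [map_pow, map_mul, FreeGroup.lift_apply_of, idx] using
        (cox_case σ hσ hw 2 6 2 (by decide)).2
    · rw [label_gd]
      simpa only [map_pow, map_mul, FreeGroup.lift_apply_of, idx] using
        (cox_case σ hσ hw 3 6 2 (by decide)).2
    · rw [label_ge]
      simpa only [map_pow, map_mul, FreeGroup.lift_apply_of, idx] using
        (cox_case σ hσ hw 4 6 2 (by decide)).2
    · rw [label_gf]
      simpa only [map_pow, map_mul, FreeGroup.lift_apply_of, idx] using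
        (cox_case σ hσ hw 5 6 4 (by decide)).2
    · simpa [coxLabel, idx] using hσ 6
  · rw [Set.mem_setOf_eq] at hr
    simp only [Suz.extra, List.mem_cons, List.not_mem_nil, or_false] at hr
    rcases hr with rfl | rfl | rfl | rfl | rfl
    · have h := hw [0, 3, 2, 3, 2, 3, 2, 3, 2] (by decide)
      simp only [List.map_cons, List.map_nil, List.prod_cons, List.prod_nil, mul_one] at h
      simp only [map_mul, map_pow, map_inv, FreeGroup.lift_apply_of, idx, pow_succ, pow_zero, one_mul,
        mul_inv_rev, hinv, mul_assoc]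
      exact h
    · have h := hw [0, 6, 5, 6, 5] (by decide)
      simp only [List.map_cons, List.map_nil, List.prod_cons, List.prod_nil, mul_one] at h
      simp only [map_mul, map_pow, map_inv, FreeGroup.lift_apply_of, idx, pow_succ, pow_zero, one_mul,
        mul_inv_rev, hinv, mul_assoc]
      exact h
    · have h := hw [0, 1, 2, 5, 0, 1, 2, 5, 0, 1, 2, 5, 0, 1, 2, 5, 0, 1, 2, 5] (by decide)
      simp only [List.map_cons, List.map_nil, List.prod_cons, List.prod_nil, mul_one] at h
      simp only [map_mul, map_pow, map_inv, FreeGroup.lift_apply_of, idx, pow_succ, pow_zero, one_mul,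
        mul_inv_rev, hinv, mul_assoc]
      exact h
    · have h := hw [1, 5, 6, 1, 5, 6, 1, 5, 6, 1, 5, 6, 1, 5, 6] (by decide)
      simp only [List.map_cons, List.map_nil, List.prod_cons, List.prod_nil, mul_one] at h
      simp only [map_mul, map_pow, map_inv, FreeGroup.lift_apply_of, idx, pow_succ, pow_zero, one_mul,
        mul_inv_rev, hinv, mul_assoc]
      exact h
    · have h := hw [1, 2, 3, 2, 3, 1, 2, 3, 2, 3, 1, 2, 3, 2, 3, 1, 2, 3, 2, 3, 1, 2, 3, 2, 3, 4, 1, 2, 3, 2, 3, 1, 2, 3, 2, 3, 1, 2, 3, 2, 3, 1, 2, 3, 2, 3, 1, 2, 3, 2, 3, 4, 1, 2, 3, 2, 3, 1, 2, 3, 2, 3, 1, 2, 3, 2, 3, 1, 2, 3, 2, 3, 1, 2, 3, 2, 3, 4] (by decide)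
      simp only [List.map_cons, List.map_nil, List.prod_cons, List.prod_nil, mul_one] at h
      simp only [map_mul, map_pow, map_inv, FreeGroup.lift_apply_of, idx, pow_succ, pow_zero, one_mul,
        mul_inv_rev, hinv, mul_assoc]
      exact h

end

/-- the generators of the presented group are involutions -/
theorem of_invol (x : Suz.Gen) :
    (PresentedGroup.of x : PresentedGroup rels) * PresentedGroup.of x = 1 :=
  invol (fun x => (PresentedGroup.of x : PresentedGroup rels))
    (fun r hr => by rw [lift_of_eq_mk]; exact PresentedGroup.one_of_mem hr) x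

/-- the relator words hold in the presented group -/
theorem of_words : ∀ w ∈ words,
    (w.map (fun s => (PresentedGroup.of (gen s) : PresentedGroup rels))).prod = 1 :=
  words_one (fun x => (PresentedGroup.of x : PresentedGroup rels))
    (fun r hr => by rw [lift_of_eq_mk]; exact PresentedGroup.one_of_mem hr)

end Cfsg.Agent.Lib.Helper38.SuzP
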